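import Cfsg.Agent.H59.Term

/-! The existence of terminal pairs (H59) from the balance property alone. -/

set_option autoImplicit false

namespace Cfsg.Agent.TE.P1x

open Subgroup H44 H92 H59
open scoped commutatorElement

universe u

variable {G : Type u} [Group G] {p m : ℕ}

/-- Balance in centralizers, and a bound for the size of their `p`-components. -/
structure Ctx (p m : ℕ) (G : Type u) [Group G] : Prop where
  bal : ∀ {y u : G}, orderOf y = p → orderOf u = p → u ∈ C1 y → Lof p (C1 y ⊓ C1 u) ≤ Lof p (C1 y)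
  max : ∀ (x : G) (J : Subgroup G), orderOf x = p → PComp p (C1 x) J → mu p J ≤ m

variable [Finite G] [hp : Fact p.Prime]

omit hp in
theorem Ctx.cov (c : Ctx p m G) {y : G} (hy : orderOf y = p) {K J : Subgroup G}
    (hJ : PComp p (C1 y) J) (h : K ≤ J) (hm : mu p K = m) : Cov p K J :=
  cov_of_mu_le h (hm ▸ c.max y J hy hJ)

theorem Ctx.transfer (c : Ctx p m G) {x e : G} (hx : orderOf x = p) (he : orderOf e = p)
    (hxe : e ∈ C1 x) {K K' J : Subgroup G} (hK : PQS p K) (hK' : PQS p K') (hJ : PComp p (C1 x) J)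
    (hm : mu p J = m) (h : Cov p K J) (h' : Cov p K' J) (hc : K' ≤ C1 e) (hT : Triv p e K) :
    Triv p e K' := by
  obtain ⟨J', hJ', h1⟩ := hT
  exact ⟨J', hJ', c.cov he hJ' ((le_pGen_inf hK' h'.le hc).trans
    (pGen_inf_le_of_cov hx he hxe hK hJ hJ' h h1)) (h'.mu_eq.trans hm)⟩

section PU
variable (c : Ctx p m G) {y u : G} (hy : orderOf y = p) (hu : orderOf u = p) (hyu : u ∈ C1 y)
  {K : Subgroup G} (hK : PQS p K) (hKy : K ≤ C1 y) (hm : mu p K = m) (hT : Triv p u K)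

include c hy hu hyu hK hKy hT in
theorem pu_aux : ∃ K₁, PComp p (C1 y ⊓ C1 u) K₁ ∧ Cov p K K₁ ∧ K₁ ≤ Lof p (C1 y) := by
  obtain ⟨J, hJ, h⟩ := hT
  have h1 := (pcomp_cov1 hJ hy (h.mem_Dc hJ (mem_C1_comm.mp hyu) hKy)).1
  rw [inf_comm] at h1
  exact ⟨_, h1, h.of_le' (le_pGen_inf hK h.le hKy) ((pGen_le _).trans inf_le_left),
    h1.le_Lof.trans (c.bal hy hu hyu)⟩

include c hy hu hyu hK hKy hT in
theorem pu_le_Lof : K ≤ Lof p (C1 y) := by
  obtain ⟨K₁, -, h1, h2⟩ := pu_aux c hy hu hyu hK hKy hT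
  exact h1.le.trans h2

include c hy hu hyu hK hKy hT in
theorem pu_exists : ∃ J, Rel p y K J := by
  by_contra! h
  have h1 : ⁅Lof p (C1 y), K⁆ ≤ Oppof p (C1 y) :=
    commutator_Lof_le (le_normalizer_pPrimeCoreOf _) fun J hJ => by
      by_contra h2
      exact h J ⟨hJ, fun h3 => h2 ((commutator_comm _ _).le.trans (le_Dc.mp h3).2)⟩
  exact hK.not_le_of_coprime (M := Oppof p (C1 y)) (pPrimeCoreOf_coprime _) (hK.perfect.ge.trans
    ((commutator_mono (pu_le_Lof c hy hu hyu hK hKy hT) le_rfl).trans h1))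

variable (hN : ¬ Triv p y K)

include c hy hu hyu hK hKy hm hT hN in
theorem pu_not_mem {J : Subgroup G} (hJ : Rel p y K J) : u ∉ normalizer (J : Set G) := by
  intro hn
  obtain ⟨K₁, h1, h2, h3⟩ := pu_aux c hy hu hyu hK hKy hT
  rcases le_or_commutator_le_rel hJ.pc hyu hu hn h1 h3 with h | h
  · exact hN ⟨J, hJ.pc, c.cov hy hJ.pc (h2.le.trans h) hm⟩
  · exact hJ.nle (le_Dc.mpr ⟨hKy, (commutator_mono h2.le le_rfl).trans h⟩)

include c hy hu hyu hK hKy hm hT hN in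
theorem pu_main {J : Subgroup G} (hJ : Rel p y K J) : mu p J = m ∧ J ≤ K ⊔ Dc p (C1 y) J ∧
    (∀ J', Rel p y K J' → ∃ i < p, J' = cj (u ^ i) J) ∧ (NS p K → NS p J) := by
  have hn := pu_not_mem c hy hu hyu hK hKy hm hT hN hJ
  obtain ⟨K₁, h1, h2, h3⟩ := pu_aux c hy hu hyu hK hKy hT
  obtain ⟨K', g1, g2, g3, g4, g5, g6⟩ := exists_diag_rel hJ.pc hyu hu hn
  have hO := Oppof_le_Dc (p := p) hJ.pc.le
  have h4 : J ≤ K' ⊔ Dc p (C1 y) J := fun a ha => by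
    have e1 := inv_mul_pow_mem_Dc hJ.pc hyu hu hn ha
    have e2 : (a * u) ^ p ∈ K' ⊔ Dc p (C1 y) J := sup_le_sup_left hO _ (g6 a ha)
    have e3 := mul_mem e2 (inv_mem (mem_sup_right (S := K') e1))
    simpa using e3
  have h5 : K' ≤ Lof p (C1 y) := g1.le_Lof.trans (c.bal hy hu hyu)
  have e : K' = K₁ := by
    by_contra hne
    refine hJ.nle (h2.le.trans (le_Dc_of_cover hJ.pc (le_inf (h5.trans (Lof_le _))
      (h5.trans hJ.pc.Lof_le_normalizer)) h4 (h3.trans (Lof_le _))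
      (h3.trans hJ.pc.Lof_le_normalizer) ?_))
    exact (g1.commutator_le_inf_of_ne h1 hne).trans (inf_le_left.trans g5)
  subst e
  refine ⟨le_antisymm (c.max y J hy hJ.pc) ((hm.symm.trans h2.mu_eq).trans_le g3), h4.trans (sup_le
    (h2.cov.trans ?_) le_sup_right), fun J' hJ' => ?_, fun h => g4 (h2.ns h)⟩
  · exact sup_le le_sup_left (g5.trans (hO.trans le_sup_right))
  · by_contra! h
    refine hJ'.nle (h2.le.trans (g2 _ (Oppof_le_Dc hJ'.pc.le) fun i => ?_))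
    refine le_Dc_of_ne hJ'.pc (hJ.pc.conj (le_normalizer (pow_mem hyu i))) ?_
    rw [← pow_mod_orderOf, hu]
    exact (h _ (Nat.mod_lt _ hp.out.pos)).symm

end PU

/-- If a subgroup of rank two has only trivial pumpups then so has every element centralizing
it. -/
theorem Ctx.triv_of_rank_two (c : Ctx p m G) {y a b : G} (hy : orderOf y = p) (ha : orderOf a = p)
    (hb : orderOf b = p) (hab : b ∈ C1 a) (hb' : b ∉ zpowers a) {K E : Subgroup G} (hK : PQS p K)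
    (hKy : K ≤ C1 y) (hm : mu p K = m) (haE : a ∈ E) (hbE : b ∈ E) (hE : E ≤ C1 y)
    (hEK : E ≤ centralizer (K : Set G)) (hT : ∀ e ∈ E, orderOf e = p → Triv p e K) :
    Triv p y K := by
  by_contra hN
  obtain ⟨J, hJ⟩ := pu_exists c hy ha (hE haE) hK hKy (hT a haE ha)
  obtain ⟨i, -, hi⟩ := (pu_main c hy ha (hE haE) hK hKy hm (hT a haE ha) hN hJ).2.2.1 _
    (hJ.conj (hE hbE) (centralizer_le_normalizer _ (hEK hbE)))
  have he : (a ^ i)⁻¹ * b ∈ E := mul_mem (inv_mem (pow_mem haE i)) hbE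
  have ho : orderOf ((a ^ i)⁻¹ * b) = p := by
    have hc : Commute a b := (mem_C1.mp hab).symm
    refine orderOf_eq_prime ?_ fun h => hb' ?_
    · rw [(hc.pow_left i).inv_left.mul_pow, inv_pow, ← pow_mul, mul_comm i, pow_mul, ← ha,
        pow_orderOf_eq_one, one_pow, ha, ← hb, pow_orderOf_eq_one, inv_one, one_mul]
    · rw [← inv_mul_eq_one.mp h]
      exact pow_mem (mem_zpowers a) i
  refine pu_not_mem c hy ho (hE he) hK hKy hm (hT _ he ho) hN hJ ?_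
  rw [mem_normalizer_iff_cj, cj_mul, hi, ← cj_mul, inv_mul_cancel, cj_one]

theorem Ctx.cfg_of_not_triv (c : Ctx p m G) {y u : G} (hy : orderOf y = p) (hu : orderOf u = p)
    {K P : Subgroup G} (hK : PQS p K) (hm : mu p K = m) (hT : Triv p u K) (hN : ¬ Triv p y K)
    (hP : IsPGroup p P) (hyP : y ∈ P) (huP : u ∈ P) (hPy : P ≤ C1 y) (hPu : P ≤ C1 u)
    (hPK : P ≤ centralizer (K : Set G)) :
    ∃ J₁ J₂ J₃ A, Cfg p m y J₁ J₂ J₃ A ∧ Nat.card P ≤ p * Nat.card A ∧ (NS p K → NS p J₁) := by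
  have hyu := hPy huP
  have hKy : K ≤ C1 y := le_C1.mpr (hPK hyP)
  have hn : P ≤ normalizer (K : Set G) := hPK.trans (centralizer_le_normalizer _)
  obtain ⟨J, hJ⟩ := pu_exists c hy hu hyu hK hKy hT
  have hR : ∀ i : ℕ, Rel p y K (cj (u ^ i) J) := fun i =>
    hJ.conj (pow_mem hyu i) (pow_mem (hn huP) i)
  have hM := fun i => pu_main c hy hu hyu hK hKy hm hT hN (hR i)
  have hnu := pu_not_mem c hy hu hyu hK hKy hm hT hN hJ
  have hA : ∀ i : ℕ, P ⊓ normalizer (J : Set G) ≤ Dc p (C1 y) (cj (u ^ i) J) := fun i => by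
    have hL := pu_le_Lof c hy hu hyu hK hKy hT
    refine le_Dc_of_cover (hR i).pc (le_inf hKy (hL.trans (hR i).pc.Lof_le_normalizer))
      (hM i).2.1 (inf_le_left.trans hPy) (fun g hg => ?_) ?_
    · have e : g * u ^ i = u ^ i * g := (Commute.pow_right (mem_C1.mp (hPu hg.1)) i).eq
      rw [mem_normalizer_iff_cj, ← cj_mul, e, cj_mul, mem_normalizer_iff_cj.mp hg.2]
    · rw [commutator_comm, commutator_eq_bot_iff_le_centralizer.mpr (inf_le_left.trans hPK)]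
      exact bot_le
  have h2 := hp.out.two_le
  refine ⟨cj (u ^ 0) J, cj (u ^ 1) J, cj (u ^ 2) J, P ⊓ normalizer (J : Set G), ⟨hy, (hR 0).pc,
    (hR 1).pc, (hR 2).pc, (hM 0).1, (hM 1).1, cj_pow_ne hu hnu (by omega) (by omega), ?_,
    hP.to_le inf_le_left, ⟨hyP, centralizer_le_normalizer _ (le_C1.mp hJ.pc.le)⟩, hA 0, hA 1, hA 2⟩,
    card_le_mul_of_cosets (u := u) fun g hg => ?_, (hM 0).2.2.2⟩
  · by_cases h : p = 2
    · exact Or.inl h
    · exact Or.inr ⟨(cj_pow_ne hu hnu (by omega) (by omega)).symm,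
        (cj_pow_ne hu hnu (by omega) (by omega)).symm⟩
  · obtain ⟨i, hi, e⟩ := (pu_main c hy hu hyu hK hKy hm hT hN hJ).2.2.1 _
      (hJ.conj (hPy hg) (hn hg))
    refine ⟨i, hi, mem_inf.mpr ⟨mul_mem (inv_mem (pow_mem huP i)) hg, ?_⟩⟩
    rw [mem_normalizer_iff_cj, cj_mul, e, ← cj_mul, inv_mul_cancel, cj_one]

/-- The case of a non-trivial centre, and the case without two components in one centralizer. -/
theorem Ctx.terminal_of_ns (c : Ctx p m G) (Φ : Prop)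
    (hΦ : Φ ∨ ∀ (y : G) J₁ J₂ J₃ A, ¬ Cfg p m y J₁ J₂ J₃ A)
    (h0 : ∃ (x : G) (J : Subgroup G), orderOf x = p ∧ PComp p (C1 x) J ∧ mu p J = m ∧
      (Φ → NS p J)) : ∃ (x : G) (J : Subgroup G), IsPTerminal p x J := by
  obtain ⟨R, ⟨hR, x, J, hx, hJ, hm, hn, hle⟩, hmax⟩ := Set.exists_max_image
    {R : Subgroup G | IsPGroup p R ∧ ∃ (x : G) (J : Subgroup G), orderOf x = p ∧
      PComp p (C1 x) J ∧ mu p J = m ∧ (Φ → NS p J) ∧ R ≤ Dc p (C1 x) J} (fun R => Nat.card R)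
    (Set.toFinite _) (by
      obtain ⟨x, J, h1, h2, h3, h4⟩ := h0
      exact ⟨⊥, IsPGroup.of_bot, x, J, h1, h2, h3, h4, bot_le⟩)
  have hsyl : ∀ (z : G) (I : Subgroup G), orderOf z = p → PComp p (C1 z) I → mu p I = m →
      (Φ → NS p I) → R ≤ Dc p (C1 z) I → SylIn p R (Dc p (C1 z) I) := fun z I h1 h2 h3 h4 h5 =>
    ⟨h5, hR, fun Q hQ hQp hRQ => (H21.eq_of_le_of_card_le hRQ
      (hmax Q ⟨hQp, z, I, h1, h2, h3, h4, hQ⟩)).symm⟩
  have hS := hsyl x J hx hJ hm hn hle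
  have hRx : R ≤ C1 x := hle.trans (Dc_le _ _)
  have mem : ∀ w ∈ Dc p (C1 x) J, w ∈ centralizer (R : Set G) → orderOf w = p → w ∈ R :=
    fun w h1 h2 h3 => by
      rw [← hS.max _ (sup_le hle (zpowers_le.mpr h1)) (isPGroup_sup_of_centralizer hR
        (isPGroup_zpowers_of_orderOf h3) (zpowers_le.mpr h2)) le_sup_left]
      exact mem_sup_right (mem_zpowers w)
  have hxR : x ∈ R := mem x (self_mem_Dc hJ.le) (le_C1.mp hRx) hx
  obtain ⟨h1, h2⟩ := pcomp_cov hJ hR hle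
  set K := H59.cov p J R
  have hKR : K ≤ centralizer (R : Set G) := h1.le.trans inf_le_right
  have hRK : R ≤ centralizer (K : Set G) := le_centralizer_iff.mp hKR
  have hmK : mu p K = m := h2.mu_eq.trans hm
  have hT : Triv p x K := ⟨J, hJ, h2⟩
  refine Good.terminal (K := K) ⟨h1.pqs, hKR, fun y hy hy' => ?_, fun z hz hc hz' I hI hK => ?_⟩ hR
    (ne_bot_of_orderOf hx hxR)
  · by_contra hN
    rcases hΦ with hΦ | hΦ
    · have hns := h2.ns' hJ.pqs (hn hΦ)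
      obtain ⟨z, hz, hzp⟩ := hns
      have hzK := Dc_le _ _ hz
      have hzR : z ∈ R := mem z (zpowers_le.mp (h2.le_Dc hJ.sn (zpowers_le.mpr (hJ.le (h2.le hzK)))
        ((commutator_mono (zpowers_le.mpr hz) le_rfl).trans ((commutator_Dc_le K K).trans
          (h2.Oppof_le.trans (Oppof_le_Oppof_of_sn hJ.sn)))))) (hKR hzK) hzp
      have hTz : Triv p z K := by
        by_contra hNz
        obtain ⟨J₁, J₂, J₃, A, g1, g2, g3⟩ := c.cfg_of_not_triv hzp hx h1.pqs hmK hT hNz hR hzR hxR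
          (le_C1.mpr (hKR hzK)) hRx hRK
        obtain ⟨P, e1, e2, e3⟩ := g1.grow
        have := hmax P ⟨e1, z, J₁, hzp, g1.pc₁, g1.mu₁, fun _ => g3 ⟨z, hz, hzp⟩, e2⟩
        omega
      have hKy : K ≤ C1 y := le_C1.mpr (hRK hy)
      obtain ⟨I, hI⟩ := pu_exists c hy' hzp (hKy hzK) h1.pqs hKy hTz
      exact pu_not_mem c hy' hzp (hKy hzK) h1.pqs hKy hmK hTz hN hI (hI.pc.Lof_le_normalizer
        (pu_le_Lof c hy' hzp (hKy hzK) h1.pqs hKy hTz hzK))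
    · obtain ⟨J₁, J₂, J₃, A, g1, -⟩ := c.cfg_of_not_triv (P := R ⊓ C1 y) hy' hx h1.pqs hmK hT hN
        (hR.to_le inf_le_left) ⟨hy, self_mem_C1 y⟩ ⟨hxR, mem_C1_comm.mp (hRx hy)⟩ inf_le_right
        (inf_le_left.trans hRx) (inf_le_left.trans hRK)
      exact hΦ _ _ _ _ _ g1
  · exact hsyl z I hz' hI (hK.mu_eq.symm.trans hmK) (fun h => hK.ns (h2.ns' hJ.pqs (hn h)))
      (hK.le_Dc' hI (le_C1.mpr hc) hRK)

section Two
variable (c : Ctx p m G)
  (hns : ∀ (x : G) (J : Subgroup G), orderOf x = p → PComp p (C1 x) J → mu p J = m → ¬ NS p J)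
  {y : G} {J₁ J₂ J₃ A : Subgroup G} (h : Cfg p m y J₁ J₂ J₃ A)
  (hmax : ∀ (y' : G) I₁ I₂ I₃ B, Cfg p m y' I₁ I₂ I₃ B → Nat.card B ≤ Nat.card A)

include c hns h hmax in
theorem two_a {s : G} (hs : s ∈ J₂) (hc : A ≤ C1 s) (ho : orderOf s = p) {e : G}
    (he : e ∈ zpowers y ⊔ zpowers s) (heo : orderOf e = p) {K : Subgroup G} (hK : PQS p K)
    (hcov : Cov p K J₁) (hKe : K ≤ C1 e) : Triv p e K := by
  obtain ⟨P, h1, h2, h3, h4, h5, h6⟩ := h.grow_s (hns y J₂ h.ord h.pc₂ h.mu₂) hs hc ho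
  obtain ⟨g1, g2⟩ := pcomp_cov h.pc₁ h1 h5
  have hPy : P ≤ C1 y := h5.trans (Dc_le _ _)
  have heP : e ∈ P := sup_le (zpowers_le.mpr (h2 h.mem)) (zpowers_le.mpr h3) he
  have hPe : P ≤ C1 e := le_C1.mpr
    (sup_le (zpowers_le.mpr (le_C1.mp hPy)) (zpowers_le.mpr (le_C1.mp h4)) he)
  refine c.transfer h.ord heo (hPy heP) g1.pqs hK h.pc₁ h.mu₁ g2 hcov hKe ?_
  by_contra hN
  obtain ⟨I₁, I₂, I₃, B, e1, e2, -⟩ := c.cfg_of_not_triv heo h.ord g1.pqs (g2.mu_eq.trans h.mu₁)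
    ⟨J₁, h.pc₁, g2⟩ hN h1 heP (h2 h.mem) hPe hPy (le_centralizer_iff.mp (g1.le.trans inf_le_right))
  have := Nat.mul_le_mul_left p (hmax _ _ _ _ _ e1)
  omega

include c hns h hmax in
theorem two_b {s : G} (hs : s ∈ J₂) (hc : A ≤ C1 s) (ho : orderOf s = p) {R K : Subgroup G}
    (hR : IsPGroup p R) (hAR : A ≤ R) (hsR : s ∈ R) (hK : PQS p K)
    (hKR : K ≤ centralizer (R : Set G)) (hcov : Cov p K J₁) {y' : G} (hy' : y' ∈ R)
    (ho' : orderOf y' = p) : Triv p y' K := by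
  have hRK : R ≤ centralizer (K : Set G) := le_centralizer_iff.mp hKR
  have hm : mu p K = m := hcov.mu_eq.trans h.mu₁
  have hyR := hAR h.mem
  obtain ⟨⟨t, ht⟩, hto⟩ := exists_prime_orderOf_dvd_card' p hK.dvd_card
  rw [← orderOf_coe] at hto
  change orderOf t = p at hto
  have hRt : R ≤ C1 t := le_C1.mpr (hKR ht)
  have hB := isPGroup_sup_of_centralizer h.pg (isPGroup_zpowers_of_orderOf hto)
    (zpowers_le.mpr (le_C1.mp (hAR.trans hRt)))
  obtain ⟨g1, g2⟩ := pcomp_cov h.pc₂ hB (sup_le h.le₂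
    ((zpowers_le.mpr (hcov.le ht)).trans (le_Dc_of_ne h.pc₂ h.pc₁ h.ne)))
  have g3 := g1.le.trans inf_le_right
  rw [H21.centralizer_sup, centralizer_zpowers_eq] at g3
  obtain ⟨I, hI, g4⟩ := two_a c hns h.symm hmax (hcov.le ht) (hAR.trans hRt) hto
    (mem_sup_right (mem_zpowers t)) hto g1.pqs g2 (g3.trans inf_le_right)
  have hnI := hns t I hto hI (g4.mu_eq.symm.trans (g2.mu_eq.trans h.mu₂))
  have hsI : s ∈ I := g4.le (zpowers_le.mp (le_pGen (zpowers_le.mpr ⟨hs, by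
    rw [H21.centralizer_sup, centralizer_zpowers_eq]
    exact ⟨le_C1.mp hc, hRt hsR⟩⟩) (isPGroup_zpowers_of_orderOf ho)))
  have hyI : y ∈ Dc p (C1 t) I := g4.mem_Dc hI (hRt hyR) (g2.le.trans h.pc₂.le)
  have stepA : ∀ e ∈ R ⊓ (C1 y ⊓ C1 s), orderOf e = p → Triv p e K := fun e he heo => by
    have hE : zpowers y ⊔ zpowers s ≤ R := sup_le (zpowers_le.mpr hyR) (zpowers_le.mpr hsR)
    exact c.triv_of_rank_two heo h.ord ho (h.pc₂.le hs)
      (fun h0 => not_mem_Dc hI hnI hsI ho (zpowers_le.mpr hyI h0)) hK (le_C1.mpr (hRK he.1)) hm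
      (mem_sup_left (mem_zpowers y)) (mem_sup_right (mem_zpowers s))
      (sup_le (zpowers_le.mpr (mem_C1_comm.mp he.2.1)) (zpowers_le.mpr (mem_C1_comm.mp he.2.2)))
      (hE.trans hRK) fun e' he' heo' =>
        two_a c hns h hmax hs hc ho he' heo' hK hcov (le_C1.mpr (hRK (hE he')))
  have stepB : ∀ e ∈ R ⊓ normalizer (I : Set G), orderOf e = p → Triv p e K := fun e he heo => by
    have hN := hR.to_le (inf_le_left : R ⊓ normalizer (I : Set G) ≤ R)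
    have hyN : y ∈ R ⊓ normalizer (I : Set G) := ⟨hyR, Dc_le_normalizer hI hyI⟩
    have hsN : s ∈ R ⊓ normalizer (I : Set G) := ⟨hsR, le_normalizer hsI⟩
    obtain ⟨b, hb, hbc, hbo⟩ := exists_orderOf_eq_centralizer hN
      (hR.to_le (inf_le_left : R ⊓ I ≤ R)) (ne_bot_of_orderOf ho ⟨hsR, hsI⟩)
      (H21.le_normalizer_inf (inf_le_left.trans le_normalizer) inf_le_right)
    obtain ⟨a, ha, hac, hao⟩ := exists_orderOf_eq_centralizer hN
      (hR.to_le (inf_le_left : R ⊓ Dc p (C1 t) I ≤ R)) (ne_bot_of_orderOf h.ord ⟨hyR, hyI⟩)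
      (H21.le_normalizer_inf (inf_le_left.trans le_normalizer) fun g hg =>
        mem_normalizer_Dc (le_normalizer (hRt hg.1)) hg.2)
    have aux : ∀ w ∈ R, w ∈ centralizer ((R ⊓ normalizer (I : Set G) : Subgroup G) : Set G) →
        w ∈ R ⊓ (C1 y ⊓ C1 s) ⊓ C1 e := fun w h1 h2 =>
      ⟨⟨h1, mem_C1.mpr (h2 y hyN).symm, mem_C1.mpr (h2 s hsN).symm⟩, mem_C1.mpr (h2 e he).symm⟩
    exact c.triv_of_rank_two heo hao hbo
      (mem_C1.mpr (hbc a ⟨ha.1, Dc_le_normalizer hI ha.2⟩).symm)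
      (fun h0 => not_mem_Dc hI hnI hb.2 hbo (zpowers_le.mpr ha.2 h0)) hK (le_C1.mpr (hRK he.1)) hm
      (aux a ha.1 hac) (aux b hb.1 hbc) inf_le_right (inf_le_left.trans (inf_le_left.trans hRK))
      fun e' he' => stepA e' he'.1
  by_cases hn : y' ∈ normalizer (I : Set G)
  · exact stepB y' ⟨hy', hn⟩ ho'
  obtain ⟨K', k1, -, -, -, -, k2⟩ := exists_diag_rel hI (hRt hy') ho' hn
  have hK'y : K' ≤ C1 y' := k1.le.trans inf_le_right
  have hK't : K' ≤ C1 t := k1.le.trans inf_le_left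
  obtain ⟨w, hw, hwc, hwo⟩ := exists_orderOf_eq_centralizer (isPGroup_zpowers_of_orderOf ho')
    (hR.to_le (inf_le_left : R ⊓ (K' ⊔ Oppof p (C1 t)) ≤ R)) (fun h0 => by
      have h1 : (s * y') ^ p ∈ R ⊓ (K' ⊔ Oppof p (C1 t)) := ⟨pow_mem (mul_mem hsR hy') p, k2 s hsI⟩
      have h2 := inv_mul_pow_mem_Dc hI (hRt hy') ho' hn hsI
      rw [h0] at h1
      rw [mem_bot.mp h1, mul_one, inv_mem_iff] at h2
      exact not_mem_Dc hI hnI hsI ho h2)
    (H21.le_normalizer_inf ((zpowers_le.mpr hy').trans le_normalizer) (H21.le_normalizer_sup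
      (zpowers_le.mpr (centralizer_le_normalizer _ (le_C1.mp hK'y)))
      ((zpowers_le.mpr (hRt hy')).trans (le_normalizer_pPrimeCoreOf _))))
  rw [centralizer_zpowers_eq] at hwc
  have hwK : w ∈ K' := zpowers_le.mp ((le_pGen (H := (K' ⊔ Oppof p (C1 t)) ⊓ C1 y')
    (zpowers_le.mpr ⟨hw.2, hwc⟩) (isPGroup_zpowers_of_orderOf hwo)).trans
    (pGen_le_of_le_sup (k1.mono (le_inf le_sup_left hK'y)
      (inf_le_inf_right _ (sup_le hK't (Oppof_le _)))).sn inf_le_left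
      (hK't.trans (le_normalizer_pPrimeCoreOf _)) (pPrimeCoreOf_coprime _)))
  have hT := stepB w ⟨hw.1, hI.Lof_le_normalizer (c.bal hto ho' (hRt hy') (k1.le_Lof hwK))⟩ hwo
  by_contra hN
  have hKy : K ≤ C1 y' := le_C1.mpr (hRK hy')
  obtain ⟨J, hJ⟩ := pu_exists c ho' hwo hwc hK hKy hT
  refine pu_not_mem c ho' hwo hwc hK hKy hm hT hN hJ (hJ.pc.Lof_le_normalizer
    (c.bal ho' hto (mem_C1_comm.mp (hRt hy')) ?_))
  rw [inf_comm]
  exact k1.le_Lof hwK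

include c hns h hmax in
theorem terminal_of_two : ∃ (x : G) (J : Subgroup G), IsPTerminal p x J := by
  obtain ⟨g1, g2⟩ := pcomp_cov h.pc₂ h.pg h.le₂
  obtain ⟨⟨s, hs⟩, ho⟩ := exists_prime_orderOf_dvd_card' p g1.pqs.dvd_card
  rw [← orderOf_coe] at ho
  change orderOf s = p at ho
  have hc : s ∈ centralizer (A : Set G) := (g1.le hs).2
  obtain ⟨R, ⟨hR, hAR, hsR, K, hK, hcov⟩, hm⟩ := Set.exists_max_image
    {R : Subgroup G | IsPGroup p R ∧ A ≤ R ∧ s ∈ R ∧ ∃ K, PComp p (centralizer (R : Set G)) K ∧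
      Cov p K J₁} (fun R => Nat.card R) (Set.toFinite _) (by
      have h1 := isPGroup_sup_of_centralizer h.pg (isPGroup_zpowers_of_orderOf ho)
        (zpowers_le.mpr hc)
      obtain ⟨h2, h3⟩ := pcomp_cov h.pc₁ h1 (sup_le h.le₁
        ((zpowers_le.mpr (g2.le hs)).trans (le_Dc_of_ne h.pc₁ h.pc₂ h.ne.symm)))
      rw [C1_inf_centralizer (mem_sup_left h.mem)] at h2
      exact ⟨_, h1, le_sup_left, mem_sup_right (mem_zpowers s), _, h2, h3⟩)
  refine Good.terminal (K := K) ⟨hK.pqs, hK.le, fun y' hy' ho' => two_b c hns h hmax (g2.le hs)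
    (le_C1.mpr hc) ho hR hAR hsR hK.pqs hK.le hcov hy' ho', fun z hz hzc hzo J hJ hKJ => ?_⟩ hR
    (ne_bot_of_orderOf ho hsR)
  have hle : R ≤ Dc p (C1 z) J := hKJ.le_Dc' hJ (le_C1.mpr hzc) (le_centralizer_iff.mp hK.le)
  refine ⟨hle, hR, fun Q hQ hQp hRQ => (H21.eq_of_le_of_card_le hRQ (hm Q ⟨hQp, hAR.trans hRQ,
    hRQ hsR, cov p J Q, ?_⟩)).symm⟩
  obtain ⟨k1, k2⟩ := pcomp_cov hJ hQp hQ
  obtain ⟨k3, -⟩ := pcomp_cov hJ hR hle
  rw [C1_inf_centralizer (hRQ hz)] at k1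
  rw [C1_inf_centralizer hz] at k3
  have e : cov p J R = K := pcomp_eq_of_le_of_le k3 hK hK.pqs (le_pGen_inf hK.pqs hKJ.le hK.le) le_rfl
  have k4 : cov p J Q ≤ K := e ▸ pGen_mono (inf_le_inf_left _ (H21.centralizer_anti hRQ))
  exact ⟨k1, (k2.of_le' k4 hKJ.le).trans hcov⟩

end Two

theorem exists_pterminal (hS : ∀ {y u : G}, orderOf y = p → orderOf u = p → u ∈ C1 y →
      Lof p (C1 y ⊓ C1 u) ≤ Lof p (C1 y))
    (h : ∃ (x : G) (K : Subgroup G), orderOf x = p ∧ PComp p (C1 x) K) :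
    ∃ (x : G) (J : Subgroup G), IsPTerminal p x J := by
  obtain ⟨J, ⟨x, hx, hJ⟩, hm⟩ := Set.exists_max_image
    {J : Subgroup G | ∃ x : G, orderOf x = p ∧ PComp p (C1 x) J} (fun J => mu p J)
    (Set.toFinite _) (by obtain ⟨x, K, h⟩ := h; exact ⟨K, x, h⟩)
  have c : Ctx p (mu p J) G := ⟨hS, fun y I h1 h2 => hm I ⟨y, h1, h2⟩⟩
  by_cases h1 : ∃ (y : G) (I : Subgroup G), orderOf y = p ∧ PComp p (C1 y) I ∧ mu p I = mu p J ∧
      NS p I
  · obtain ⟨y, I, g1, g2, g3, g4⟩ := h1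
    exact c.terminal_of_ns True (Or.inl trivial) ⟨y, I, g1, g2, g3, fun _ => g4⟩
  by_cases h2 : ∃ (A : Subgroup G) (y : G) (J₁ J₂ J₃ : Subgroup G), Cfg p (mu p J) y J₁ J₂ J₃ A
  · obtain ⟨A, ⟨y, J₁, J₂, J₃, hA⟩, hmax⟩ := Set.exists_max_image
      {A : Subgroup G | ∃ (y : G) (J₁ J₂ J₃ : Subgroup G), Cfg p (mu p J) y J₁ J₂ J₃ A}
      (fun A => Nat.card A) (Set.toFinite _) h2
    exact terminal_of_two c (fun y I g1 g2 g3 g4 => h1 ⟨y, I, g1, g2, g3, g4⟩) hA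
      fun y' I₁ I₂ I₃ B hB => hmax B ⟨y', I₁, I₂, I₃, hB⟩
  · exact c.terminal_of_ns False (Or.inr fun y J₁ J₂ J₃ A hA => h2 ⟨A, y, J₁, J₂, J₃, hA⟩)
      ⟨x, J, hx, hJ, rfl, False.elim⟩

end Cfsg.Agent.TE.P1x
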